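import Mathlib

set_option autoImplicit false

namespace Cfsg.Agent.Lib.Helper70.G4

/-- A group is radical-free when it has no nontrivial solvable normal subgroup. -/
def RadFree (H : Type*) [Group H] : Prop :=
  ∀ N : Subgroup H, N.Normal → Group.IsSolvable N → N = ⊥

end Cfsg.Agent.Lib.Helper70.G4
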