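import Mathlib
import Cfsg.Agent.Lib.Helper70.D11Defs
import Cfsg.Agent.Lib.Helper6.D11NSG
import Cfsg.Agent.S0732

/-!
# S0679 piece PSL (fallback copy): a transitive group of degree 11 and order 660 whose
Sylow 11-normaliser has order at most 55 is `PSL(2,11)` (action on its 12 Sylow 11-subgroups,
landed S0732)
-/

set_option autoImplicit false

namespace Cfsg.Agent.Lib.Helper70.D11

open Equiv

theorem psl_of_card_fb (G : Subgroup P11) (hc : c0 ∈ G) (hm : m3 ∈ G)
    (hN : ∀ g ∈ G, g * c0 * g⁻¹ ∈ Subgroup.zpowers c0 → g ∈ Subgroup.closure ({c0, m3} : Set P11))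
    (hF : Nat.card (Subgroup.closure ({c0, m3} : Set P11)) = 55)
    (hcard : Nat.card G = 660) :
    Nonempty (G ≃* Matrix.ProjectiveSpecialLinearGroup (Fin 2) (ZMod 11)) := by
  classical
  haveI : Fact (Nat.Prime 11) := ⟨by norm_num⟩
  haveI : Finite G := Nat.finite_of_card_ne_zero (by rw [hcard]; norm_num)
  set c : G := ⟨c0, hc⟩ with hcdef
  have hc11 : c0 ^ 11 = 1 := by decide
  have hc1 : c0 ≠ 1 := by decide
  have hord0 : orderOf c0 = 11 := orderOf_eq_prime hc11 hc1
  have hord : orderOf c = 11 := by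
    have h1 : orderOf c = orderOf c0 := Subgroup.orderOf_mk c0 hc
    rw [h1, hord0]
  set P0 : Subgroup G := Subgroup.zpowers c with hP0
  have hP0card : Nat.card P0 = 11 := by rw [hP0, Nat.card_zpowers, hord]
  have hP0p : IsPGroup 11 P0 := IsPGroup.of_card (n := 1) (by rw [hP0card]; rfl)
  obtain ⟨P, hPle⟩ := hP0p.exists_le_sylow
  have hPcard : Nat.card (P : Subgroup G) = 11 := by
    obtain ⟨n, hn⟩ := IsPGroup.iff_card.1 P.isPGroup'
    have h1 : Nat.card (P : Subgroup G) ∣ 660 := by
      have := Subgroup.card_subgroup_dvd_card (P : Subgroup G)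
      rwa [hcard] at this
    have h2 : 11 ∣ Nat.card (P : Subgroup G) := by
      have := Subgroup.card_dvd_of_le hPle
      rwa [hP0card] at this
    rcases n with _ | _ | n
    · rw [hn] at h2; norm_num at h2
    · rw [hn]; norm_num
    · rw [hn] at h1
      have : 11 ^ 2 ∣ 660 := (pow_dvd_pow 11 (by omega)).trans h1
      norm_num at this
  have hPeq : (P : Subgroup G) = P0 :=
    (Subgroup.eq_of_le_of_card_ge hPle (by rw [hPcard, hP0card])).symm
  set F : Subgroup P11 := Subgroup.closure ({c0, m3} : Set P11) with hFdef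
  set NP : Subgroup G := Subgroup.normalizer ((P : Subgroup G) : Set G) with hNP
  have hNle : NP ≤ F.subgroupOf G := by
    intro g hg
    rw [Subgroup.mem_subgroupOf]
    apply hN g g.2
    have h1 : g * c * g⁻¹ ∈ (P : Subgroup G) :=
      (Subgroup.mem_normalizer_iff.1 hg c).1 (hPle (Subgroup.mem_zpowers c))
    rw [hPeq, hP0, Subgroup.mem_zpowers_iff] at h1
    obtain ⟨k, hk⟩ := h1
    rw [Subgroup.mem_zpowers_iff]
    refine ⟨k, ?_⟩
    have := congrArg (Subtype.val) hk
    simpa using this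
  have hNcard1 : Nat.card NP ∣ 55 := by
    have h1 := Subgroup.card_dvd_of_le hNle
    have h2 : Nat.card (F.subgroupOf G) ∣ Nat.card F :=
      Subgroup.card_comap_dvd_of_injective F G.subtype G.subtype_injective
    rw [hF] at h2
    exact h1.trans h2
  have hNcard2 : 11 ∣ Nat.card NP := by
    have := Subgroup.card_dvd_of_le (Subgroup.le_normalizer (H := (P : Subgroup G)))
    rwa [hPcard] at this
  have hn1 : Nat.card (Sylow 11 G) = NP.index :=
    Sylow.card_eq_index_normalizer P
  have hn2 : Nat.card (Sylow 11 G) ≡ 1 [MOD 11] := card_sylow_modEq_one 11 G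
  have hn3 : NP.index * Nat.card NP = 660 := by
    rw [← hcard]; exact Subgroup.index_mul_card _
  have hn : Nat.card (Sylow 11 G) = 12 := by
    have h55 : Nat.card NP = 11 ∨
        Nat.card NP = 55 := by
      have hmem : Nat.card NP ∈ Nat.divisors 55 := Nat.mem_divisors.2 ⟨hNcard1, by norm_num⟩
      have hd : Nat.divisors 55 = {1, 5, 11, 55} := by decide
      rw [hd] at hmem
      simp only [Finset.mem_insert, Finset.mem_singleton] at hmem
      rcases hmem with h | h | h | h
      · rw [h] at hNcard2; norm_num at hNcard2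
      · rw [h] at hNcard2; norm_num at hNcard2
      · left; exact h
      · right; exact h
    rcases h55 with h | h
    · rw [h] at hn3
      have h60 : NP.index = 60 := by omega
      rw [hn1, h60] at hn2
      exact absurd hn2 (by decide)
    · rw [h] at hn3
      rw [hn1]; omega
  set φ : G →* Perm (Sylow 11 G) := MulAction.toPermHom G (Sylow 11 G) with hφ
  have hinj : Function.Injective φ := by
    rw [← MonoidHom.ker_eq_bot_iff]
    by_contra hker
    set H : Subgroup P11 := φ.ker.map G.subtype with hH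
    have hHG : H ≤ G := by
      rw [hH]; intro x hx; obtain ⟨y, _, rfl⟩ := Subgroup.mem_map.1 hx; exact y.2
    have hnorm : ∀ g ∈ G, ∀ h ∈ H, g * h * g⁻¹ ∈ H := by
      intro g hg h hh
      obtain ⟨y, hy, rfl⟩ := Subgroup.mem_map.1 hh
      refine Subgroup.mem_map.2 ⟨⟨g, hg⟩ * y * ⟨g, hg⟩⁻¹, ?_, rfl⟩
      exact (MonoidHom.normal_ker φ).conj_mem y hy ⟨g, hg⟩
    have hne : ∃ h ∈ H, h ≠ 1 := by
      obtain ⟨⟨y, hy⟩, hy1⟩ := (Subgroup.ne_bot_iff_exists_ne_one).1 hker
      refine ⟨(y : P11), Subgroup.mem_map.2 ⟨y, hy, rfl⟩, ?_⟩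
      intro h1
      apply hy1
      apply Subtype.ext
      apply Subtype.ext
      exact h1
    have hcH := Cfsg.Agent.Lib.Helper6.D11.c0_mem_of_normal G H hHG hnorm hc hne
    obtain ⟨y, hy, hy0⟩ := Subgroup.mem_map.1 hcH
    have hyc : y = c := Subtype.ext hy0
    rw [hyc] at hy
    have hfix : ∀ Q : Sylow 11 G, c • Q = Q := by
      intro Q
      have h1 : φ c = 1 := hy
      have h2 := congrArg (fun σ : Perm (Sylow 11 G) => σ Q) h1
      simpa [hφ] using h2
    have hall : ∀ Q : Sylow 11 G, Q = P := by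
      intro Q
      have h1 : Q ∈ MulAction.fixedPoints P0 (Sylow 11 G) := by
        rw [Subgroup.sylow_mem_fixedPoints_iff]
        rw [hP0, Subgroup.zpowers_le]
        exact Sylow.smul_eq_iff_mem_normalizer.1 (hfix Q)
      have h2 : P0 ≤ Q := (hP0p.sylow_mem_fixedPoints_iff).1 h1
      have h3 : (P : Subgroup G) ≤ Q := hPeq ▸ h2
      exact Sylow.ext (P.is_maximal' Q.isPGroup' h3)
    have h1 : Nat.card (Sylow 11 G) = 1 := by
      rw [Nat.card_eq_one_iff_unique]
      exact ⟨⟨fun a b => (hall a).trans (hall b).symm⟩, ⟨P⟩⟩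
    omega
  haveI : Fintype (Sylow 11 G) := Fintype.ofFinite _
  set G' : Subgroup (Perm (Sylow 11 G)) := φ.range with hG'
  have e : G ≃* G' := MonoidHom.ofInjective hinj
  haveI : MulAction.IsPretransitive G' (Sylow 11 G) := by
    refine ⟨fun x y => ?_⟩
    obtain ⟨g, hg⟩ := MulAction.exists_smul_eq G x y
    exact ⟨⟨φ g, MonoidHom.mem_range.2 ⟨g, rfl⟩⟩, hg⟩
  have hcard' : Nat.card G' = (11 + 1) * 11 * 5 := by
    rw [← Nat.card_congr e.toEquiv, hcard]
  have hα : Fintype.card (Sylow 11 G) = 11 + 1 := by rw [← Nat.card_eq_fintype_card, hn]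
  rcases Cfsg.Agent.S0732.result (p := 11) (d := 5) (by norm_num) hα G' hcard' (by norm_num)
    with h | h | h
  · omega
  · obtain ⟨_, ⟨e2⟩⟩ := h; exact ⟨e.trans e2⟩
  · obtain ⟨q, hq, h12, _⟩ := h
    exfalso
    have hq4 : q < 4 := by
      by_contra hq4
      have := Nat.pow_le_pow_right (by norm_num : 1 ≤ 2) (not_lt.1 hq4)
      omega
    interval_cases q <;> omega

end Cfsg.Agent.Lib.Helper70.D11
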