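import Cfsg.Agent.Lib.Helper70.D11Sound
import Cfsg.Agent.Lib.Helper60.D11JWFREE
import Cfsg.Agent.Lib.Helper66.D11TWO
import Cfsg.Agent.Lib.Helper73.D11NORM
import Cfsg.Agent.Lib.Helper77.D11NORM2
import Cfsg.Agent.Lib.Helper57.D11FRAT
import Cfsg.Agent.Lib.Helper78.D11ALT
import Cfsg.Agent.Lib.Helper89.D11ORD
import Cfsg.Agent.Lib.Helper43.D11MP4
import Cfsg.Agent.Lib.Helper6.D11NSG
import Cfsg.Agent.Lib.Helper70.D11RED
import Cfsg.Agent.Lib.Helper70.D11PSL

set_option autoImplicit false

/-!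
# Transitive groups of degree 11: the main theorem on `Fin 11` (helper70, for S0679)

An insoluble subgroup `G` of `Perm (Fin 11)` containing the cycle `c0` and not containing the alternating
group is sharply 4-fold transitive or isomorphic to `PSL(2, 11)`.
-/

namespace Cfsg.Agent.Lib.Helper70.D11

open Equiv
open Cfsg.Agent.Lib.Helper16.D11 (sign_c0 sign_u)
open Cfsg.Agent.Lib.Helper60.D11 (noJW_of)
open Cfsg.Agent.Lib.Helper66.D11 (two_trans exists_invol)
open Cfsg.Agent.Lib.Helper73.D11 (norm_cases)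
open Cfsg.Agent.Lib.Helper77.D11 (normalizer_le)
open Cfsg.Agent.Lib.Helper57.D11 (frattini11)
open Cfsg.Agent.Lib.Helper78.D11 (not_solvable_inf_alt)
open Cfsg.Agent.Lib.Helper89.D11 (card_cases)
open Cfsg.Agent.Lib.Helper43.D11 (mp4_of_chain sharp_of_card)
open Cfsg.Agent.Lib.Helper6.D11 (c0_mem_of_normal)

/-- All involutions of `G` lie in the group `M` of order at most 7920 with a sharply 4-transitive chain:
the conclusion. -/
theorem finish (G : Subgroup P11) (hc : c0 ∈ G) (hm : m3 ∈ G) (hns : ¬ Group.IsSolvable G)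
    (hJ : NoJW G)
    (hNG : ∀ g ∈ G, g * c0 * g⁻¹ ∈ Subgroup.zpowers c0 → g ∈ Subgroup.closure ({c0, m3} : Set P11))
    (M : Subgroup P11) (hcM : c0 ∈ M) (hmM : m3 ∈ M) (hcardM : Nat.card M ≤ 7920)
    (hchain : ∀ a b c d : Fin 11, a ≠ b → a ≠ c → a ≠ d → b ≠ c → b ≠ d → c ≠ d →
      ∃ g ∈ M, g 0 = a ∧ g 1 = b ∧ g 2 = c ∧ g 3 = d)
    (hinv : ∀ t ∈ G, t * t = 1 → t ∈ M) :
    (MulAction.IsMultiplyPretransitive G (Fin 11) 4 ∧
        ∀ x : Fin 4 ↪ Fin 11, MulAction.stabilizer G x = ⊥) ∨
      Nonempty (G ≃* Matrix.ProjectiveSpecialLinearGroup (Fin 2) (ZMod 11)) := by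
  have h2 := two_trans G hc hns
  obtain ⟨t0, ht0G, ht0ne, ht0sq⟩ := exists_invol G h2
  set N : Subgroup P11 := Subgroup.closure {t : P11 | t ∈ G ∧ t * t = 1} with hN
  have hNG' : N ≤ G := by
    rw [hN, Subgroup.closure_le]
    intro t ht
    exact ht.1
  have hNM : N ≤ M := by
    rw [hN, Subgroup.closure_le]
    intro t ht
    exact hinv t ht.1 ht.2
  have hnorm : ∀ g ∈ G, ∀ h ∈ N, g * h * g⁻¹ ∈ N := by
    intro g hg
    have hle : N ≤ N.comap (MulAut.conj g).toMonoidHom := by
      rw [hN, Subgroup.closure_le]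
      intro t ht
      show (MulAut.conj g) t ∈ Subgroup.closure {t : P11 | t ∈ G ∧ t * t = 1}
      apply Subgroup.subset_closure
      rw [MulAut.conj_apply]
      refine ⟨G.mul_mem (G.mul_mem hg ht.1) (G.inv_mem hg), ?_⟩
      have h1 := ht.2
      calc g * t * g⁻¹ * (g * t * g⁻¹) = g * (t * t) * g⁻¹ := by group
        _ = 1 := by rw [h1]; group
    intro h hh
    have h3 := hle hh
    rw [Subgroup.mem_comap] at h3
    simpa [MulAut.conj_apply] using h3
  have hc0N : c0 ∈ N := c0_mem_of_normal G N hNG' hnorm hc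
    ⟨t0, Subgroup.subset_closure ⟨ht0G, ht0sq⟩, ht0ne⟩
  have hFM : Subgroup.closure ({c0, m3} : Set P11) ≤ M := by
    rw [Subgroup.closure_le]
    intro x hx
    simp only [Set.mem_insert_iff, Set.mem_singleton_iff] at hx
    rcases hx with rfl | rfl
    · exact hcM
    · exact hmM
  have hGM : G ≤ M := frattini11 G N M hNG' hnorm hc0N hNM (fun g hg hn => hFM (hNG g hg hn))
  have hcard_le : Nat.card G ≤ 7920 := le_trans (Subgroup.card_le_of_le hGM) hcardM
  rcases card_cases G hc hm hNG card_Fs h2 hJ hcard_le with h660 | h7920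
  · right
    exact psl_of_card_fb G hc hm hNG card_Fs h660
  · left
    have hEq : G = M := Subgroup.eq_of_le_of_card_ge hGM (by rw [h7920]; exact hcardM)
    subst hEq
    have h4 := mp4_of_chain G hchain
    exact ⟨h4, sharp_of_card G h4 h7920⟩

theorem main (G : Subgroup P11) (hc : c0 ∈ G) (hns : ¬ Group.IsSolvable G)
    (hA : ¬ alternatingGroup (Fin 11) ≤ G) :
    (MulAction.IsMultiplyPretransitive G (Fin 11) 4 ∧
        ∀ x : Fin 4 ↪ Fin 11, MulAction.stabilizer G x = ⊥) ∨
      Nonempty (G ≃* Matrix.ProjectiveSpecialLinearGroup (Fin 2) (ZMod 11)) := by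
  have hJ : NoJW G := noJW_of G hc hA
  set H : Subgroup P11 := G ⊓ alternatingGroup (Fin 11) with hH
  have hcH : c0 ∈ H := ⟨hc, Perm.mem_alternatingGroup.mpr sign_c0⟩
  have hnsH : ¬ Group.IsSolvable H := not_solvable_inf_alt G hns
  have hJH : NoJW H := fun g hg => hJ g hg.1
  have huH : u ∉ H := by
    intro h
    have h1 := Perm.mem_alternatingGroup.mp h.2
    rw [sign_u] at h1
    exact absurd h1 (by decide)
  have hmH : m3 ∈ H := (norm_cases H hcH hnsH).resolve_right huH
  have h2H := two_trans H hcH hnsH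
  obtain ⟨t0, ht0H, ht0ne, ht0sq⟩ := exists_invol H h2H
  have hI1 : ∀ s ∈ {t : P11 | code t ∈ I1c}, c0 * s * c0⁻¹ ∈ {t : P11 | code t ∈ I1c} :=
    fun s hs => conjI1 s hs
  have hI2 : ∀ s ∈ {t : P11 | code t ∈ I2c}, c0 * s * c0⁻¹ ∈ {t : P11 | code t ∈ I2c} :=
    fun s hs => conjI2 s hs
  have key : ∀ t ∈ H, t * t = 1 → t ≠ 1 → code t ∈ I1c ∨ code t ∈ I2c := by
    intro t ht hsq hne
    have hsgn : Perm.sign t = 1 := Perm.mem_alternatingGroup.mp ht.2
    rcases red_fix0_fb {t : P11 | code t ∈ I1c} {t : P11 | code t ∈ I2c} hI1 hI2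
      (fun t ht hs h0 => E1_fix0 t ht hs h0) t hsq hsgn with h | ⟨g, hg, hjw⟩ | h | h
    · exact absurd h hne
    · exfalso
      refine hJH g ?_ hjw
      have hle : Subgroup.closure ({c0, m3, t} : Set P11) ≤ H := by
        rw [Subgroup.closure_le]
        intro x hx
        simp only [Set.mem_insert_iff, Set.mem_singleton_iff] at hx
        rcases hx with rfl | rfl | rfl
        · exact hcH
        · exact hmH
        · exact ht
      exact hle hg
    · exact Or.inl h
    · exact Or.inr h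
  have noMix : ∀ t ∈ H, ∀ s ∈ H, code t ∈ I1c → code s ∈ I2c → False := by
    intro t ht s hs h1 h2
    obtain ⟨g, hg, hjw⟩ := E2 t s h1 h2
    refine hJH g ?_ hjw
    have hle : Subgroup.closure ({c0, m3, t, s} : Set P11) ≤ H := by
      rw [Subgroup.closure_le]
      intro x hx
      simp only [Set.mem_insert_iff, Set.mem_singleton_iff] at hx
      rcases hx with rfl | rfl | rfl | rfl
      · exact hcH
      · exact hmH
      · exact ht
      · exact hs
    exact hle hg
  -- `u ∉ G`
  have huG : u ∉ G := by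
    intro hu
    have hut : u * t0 * u ∈ H := by
      refine Subgroup.mem_inf.mpr ⟨G.mul_mem (G.mul_mem hu ht0H.1) hu, ?_⟩
      rw [Perm.mem_alternatingGroup, Perm.sign_mul, Perm.sign_mul, sign_u,
        Perm.mem_alternatingGroup.mp ht0H.2]
      decide
    have husq : u * u = 1 := by decide
    have hutsq : u * t0 * u * (u * t0 * u) = 1 := by
      calc u * t0 * u * (u * t0 * u) = u * t0 * (u * u) * t0 * u := by group
        _ = u * (t0 * t0) * u := by rw [husq]; group
        _ = 1 := by rw [ht0sq]; simpa using husq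
    have hutne : u * t0 * u ≠ 1 := by
      intro h
      apply ht0ne
      have h3 : t0 = u * (u * t0 * u) * u := by
        calc t0 = (u * u) * t0 * (u * u) := by rw [husq]; group
          _ = u * (u * t0 * u) * u := by group
      rw [h3, h]
      simpa using husq
    rcases key t0 ht0H ht0sq ht0ne with h | h
    · exact noMix t0 ht0H _ hut h (conjU12 t0 h)
    · exact noMix _ hut t0 ht0H (conjU21 t0 h) h
  have hNG := normalizer_le G hc huG
  have hFH : Subgroup.closure ({c0, m3} : Set P11) ≤ H := by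
    rw [Subgroup.closure_le]
    intro x hx
    simp only [Set.mem_insert_iff, Set.mem_singleton_iff] at hx
    rcases hx with rfl | rfl
    · exact hcH
    · exact hmH
  have hnormH : ∀ g ∈ G, ∀ h ∈ H, g * h * g⁻¹ ∈ H := by
    intro g hg h hh
    refine Subgroup.mem_inf.mpr ⟨G.mul_mem (G.mul_mem hg hh.1) (G.inv_mem hg), ?_⟩
    rw [Perm.mem_alternatingGroup, Perm.sign_mul, Perm.sign_mul, Perm.sign_inv,
      Perm.mem_alternatingGroup.mp hh.2, mul_one]
    exact Int.units_mul_self _
  have hGH : G ≤ H := frattini11 G H H inf_le_left hnormH hcH le_rfl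
    (fun g hg hn => hFH (hNG g hg hn))
  have hinvG : ∀ t ∈ G, t * t = 1 → t ≠ 1 → code t ∈ I1c ∨ code t ∈ I2c :=
    fun t ht hsq hne => key t (hGH ht) hsq hne
  rcases key t0 ht0H ht0sq ht0ne with h0 | h0
  · refine finish G hc hmH.1 hns hJ hNG M1 (Subgroup.subset_closure (by simp))
      (Subgroup.subset_closure (by simp)) card_M1_le chain_M1 ?_
    intro t ht hsq
    by_cases hne : t = 1
    · rw [hne]; exact one_mem _
    · rcases hinvG t ht hsq hne with h | h
      · exact I1_sub t h
      · exact absurd (noMix t0 ht0H t (hGH ht) h0 h) id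
  · refine finish G hc hmH.1 hns hJ hNG M2 (Subgroup.subset_closure (by simp))
      (Subgroup.subset_closure (by simp)) card_M2_le chain_M2 ?_
    intro t ht hsq
    by_cases hne : t = 1
    · rw [hne]; exact one_mem _
    · rcases hinvG t ht hsq hne with h | h
      · exact absurd (noMix t (hGH ht) t0 ht0H h h0) id
      · exact I2_sub t h

end Cfsg.Agent.Lib.Helper70.D11
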