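import Mathlib
import Cfsg.Agent.Lib.Helper4.FCDefs
import Cfsg.Agent.S4035

/-!
# Project FC (S4146, architect helper4): piece APC (duplicate seat, helper70)

For `p ∣ n` a Sylow `p`-subgroup of `M = {x : cs x ∈ {1, m}}` is central in `M`.
-/

set_option autoImplicit false

namespace Cfsg.Agent.Lib.Helper4.FC

universe u

theorem apc_helper70_ncard {M : Type u} [Group M] [Finite M] (y : M) :
    (ConjClasses.mk y).carrier.ncard = (Subgroup.centralizer ({y} : Set M)).index := by
  rw [← ConjAct.orbit_eq_carrier_conjClasses, ← MulAction.index_stabilizer]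
  have e : MulAction.stabilizer (ConjAct M) y =
      (Subgroup.centralizer ({y} : Set M)).comap (ConjAct.ofConjAct (G := M)).toMonoidHom := by
    ext g
    rw [MulAction.mem_stabilizer_iff, Subgroup.mem_comap, Subgroup.mem_centralizer_iff,
      ConjAct.smul_def]
    constructor
    · intro h w hw
      rw [Set.mem_singleton_iff] at hw
      rw [hw]
      rw [mul_inv_eq_iff_eq_mul] at h
      exact h.symm
    · intro h
      rw [mul_inv_eq_iff_eq_mul]
      exact (h y (Set.mem_singleton y)).symm
  rw [e, Subgroup.index_comap_of_surjective _ (ConjAct.ofConjAct (G := M)).surjective]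

theorem apc_helper70_relIndex {G : Type u} [Group G] [Finite G] (H K : Subgroup G) [K.Normal] :
    H.relIndex K ∣ H.index := by
  have h1 : Nat.card (H ⊓ K : Subgroup G) * H.relIndex K = Nat.card K := by
    have e := Subgroup.relIndex_mul_relIndex (⊥ : Subgroup G) (H ⊓ K) K bot_le inf_le_right
    rw [Subgroup.relIndex_bot_left, Subgroup.relIndex_bot_left, Subgroup.inf_relIndex_right] at e
    exact e
  have h2 : Nat.card (H ⊓ K : Subgroup G) * K.relIndex H = Nat.card H := by
    have e := Subgroup.relIndex_mul_relIndex (⊥ : Subgroup G) (H ⊓ K) H bot_le inf_le_left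
    rw [Subgroup.relIndex_bot_left, Subgroup.relIndex_bot_left, Subgroup.inf_relIndex_left] at e
    exact e
  have h3 : Nat.card K * K.relIndex H = Nat.card (H ⊔ K : Subgroup G) := by
    have e := Subgroup.relIndex_mul_relIndex (⊥ : Subgroup G) K (H ⊔ K) bot_le le_sup_right
    rw [Subgroup.relIndex_bot_left, Subgroup.relIndex_bot_left, Subgroup.relIndex_sup_right] at e
    exact e
  have h4 : Nat.card H * H.relIndex (H ⊔ K) = Nat.card (H ⊔ K : Subgroup G) := by
    have e := Subgroup.relIndex_mul_relIndex (⊥ : Subgroup G) H (H ⊔ K) bot_le le_sup_left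
    rw [Subgroup.relIndex_bot_left, Subgroup.relIndex_bot_left] at e
    exact e
  have hpos : 0 < Nat.card H := Nat.card_pos
  have h5 : H.relIndex (H ⊔ K) = H.relIndex K := by
    apply Nat.eq_of_mul_eq_mul_left hpos
    rw [h4, ← h3, ← h1, ← h2]
    ring
  rw [← h5]
  exact Subgroup.relIndex_dvd_index_of_le le_sup_left

theorem fc_apc : APCStmt.{u} := by
  intro G _ _ n m p M hF hp hpn hMn hM P u y hu
  haveI : Fact p.Prime := ⟨hp⟩
  haveI := hMn
  have hpm : ¬ p ∣ m := by
    intro h
    have h1 : p ∣ Nat.gcd n m := Nat.dvd_gcd hpn h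
    have h2 : Nat.gcd n m = 1 := hF.2.2.1
    rw [h2] at h1
    exact hp.one_lt.ne' (Nat.dvd_one.mp h1)
  have hX : Subgroup.centralizer ((P : Subgroup M) : Set M) = ⊤ := by
    apply Cfsg.Agent.S4035.eq_top_of_forall_conj_mem
    intro z
    have hnd : ¬ p ∣ (ConjClasses.mk z).carrier.ncard := by
      rw [apc_helper70_ncard]
      have e : Subgroup.centralizer ({z} : Set M) = (Cen (z : G)).subgroupOf M := by
        ext w
        rw [Subgroup.mem_centralizer_iff, Subgroup.mem_subgroupOf, Subgroup.mem_centralizer_iff]
        constructor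
        · intro h v hv
          rw [Set.mem_singleton_iff] at hv
          rw [hv]
          exact congrArg Subtype.val (h z (Set.mem_singleton z))
        · intro h v hv
          rw [Set.mem_singleton_iff] at hv
          rw [hv]
          exact Subtype.ext (h (z : G) (Set.mem_singleton _))
      rw [e]
      intro hdvd
      have h1 : (Cen (z : G)).relIndex M ∣ cs (z : G) := apc_helper70_relIndex (Cen (z : G)) M
      have h2 : p ∣ cs (z : G) := hdvd.trans h1
      rcases (hM (z : G)).mp z.2 with h | h
      · rw [h] at h2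
        exact hp.one_lt.ne' (Nat.dvd_one.mp h2)
      · rw [h] at h2
        exact hpm h2
    obtain ⟨g, hg⟩ := Cfsg.Agent.S4035.exists_conj_centralized P z hnd
    refine ⟨g⁻¹, ?_⟩
    rw [inv_inv, Subgroup.mem_centralizer_iff]
    intro q hq
    exact hg q hq
  have hy : y ∈ Subgroup.centralizer ((P : Subgroup M) : Set M) := by
    rw [hX]
    exact Subgroup.mem_top y
  rw [Subgroup.mem_centralizer_iff] at hy
  exact hy u hu

end Cfsg.Agent.Lib.Helper4.FC
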