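import Mathlib

set_option autoImplicit false

/-!
# A kernel computation in the alternating group of degree 8 (helper70, for S2553)

`x0` is the 7-cycle `(0 1 2 3 4 5 6)`; `V1` and `V2` are the two regular elementary abelian subgroups of
order 8 normalised by `x0` (the translation groups of the two field structures on the eight points for
which `x0` is multiplication by a primitive element).  `star8`: an even permutation `g` normalises `V1`, or
normalises `V2`, or `⟨x0, g⟩` contains an element of order divisible by 5.  After multiplying `g` by powers of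
`x0` on both sides it fixes or swaps the points 0 and 7, which leaves 720 permutations to check.
-/

namespace Cfsg.Agent.Lib.Helper70.G4

open Equiv

/-- Tables of maps of eight points. -/
abbrev Tab : Type := Fin 8 → Fin 8

def x0t : Tab := ![1, 2, 3, 4, 5, 6, 0, 7]

def x0it : Tab := ![6, 0, 1, 2, 3, 4, 5, 7]

/-- The 7-cycle `(0 1 2 3 4 5 6)`. -/
def x0 : Perm (Fin 8) :=
  ⟨x0t, x0it, by intro i; revert i; decide, by intro i; revert i; decide⟩

def V1t : List Tab :=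
  [![0, 1, 2, 3, 4, 5, 6, 7],
    ![7, 3, 6, 1, 5, 4, 2, 0],
    ![3, 7, 4, 0, 2, 6, 5, 1],
    ![1, 0, 5, 7, 6, 2, 4, 3],
    ![6, 4, 7, 5, 1, 3, 0, 2],
    ![2, 5, 0, 4, 3, 1, 7, 6],
    ![5, 2, 1, 6, 7, 0, 3, 4],
    ![4, 6, 3, 2, 0, 7, 1, 5]]

def V2t : List Tab :=
  [![0, 1, 2, 3, 4, 5, 6, 7],
    ![7, 5, 3, 2, 6, 1, 4, 0],
    ![5, 7, 6, 4, 3, 0, 2, 1],
    ![1, 0, 4, 6, 2, 7, 3, 5],
    ![3, 6, 7, 0, 5, 4, 1, 2],
    ![2, 4, 0, 7, 1, 6, 5, 3],
    ![4, 2, 1, 5, 0, 3, 7, 6],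
    ![6, 3, 5, 1, 7, 2, 0, 4]]

def S1t : List Tab :=
  [![0, 1, 2, 3, 4, 5, 6, 7],
    ![0, 1, 4, 3, 2, 6, 5, 7],
    ![0, 1, 5, 3, 6, 2, 4, 7],
    ![0, 1, 6, 3, 5, 4, 2, 7],
    ![0, 2, 1, 6, 4, 5, 3, 7],
    ![0, 2, 3, 6, 5, 4, 1, 7],
    ![0, 2, 4, 6, 1, 3, 5, 7],
    ![0, 2, 5, 6, 3, 1, 4, 7],
    ![0, 3, 2, 1, 5, 4, 6, 7],
    ![0, 3, 4, 1, 6, 2, 5, 7],
    ![0, 3, 5, 1, 2, 6, 4, 7],
    ![0, 3, 6, 1, 4, 5, 2, 7],
    ![0, 4, 1, 5, 2, 6, 3, 7],
    ![0, 4, 2, 5, 1, 3, 6, 7],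
    ![0, 4, 3, 5, 6, 2, 1, 7],
    ![0, 4, 6, 5, 3, 1, 2, 7],
    ![0, 5, 1, 4, 6, 2, 3, 7],
    ![0, 5, 2, 4, 3, 1, 6, 7],
    ![0, 5, 3, 4, 2, 6, 1, 7],
    ![0, 5, 6, 4, 1, 3, 2, 7],
    ![0, 6, 1, 2, 5, 4, 3, 7],
    ![0, 6, 3, 2, 4, 5, 1, 7],
    ![0, 6, 4, 2, 3, 1, 5, 7],
    ![0, 6, 5, 2, 1, 3, 4, 7]]

def S2t : List Tab :=
  [![0, 1, 2, 3, 4, 5, 6, 7],
    ![0, 1, 3, 2, 6, 5, 4, 7],
    ![0, 1, 4, 6, 2, 5, 3, 7],
    ![0, 1, 6, 4, 3, 5, 2, 7],
    ![0, 2, 1, 5, 4, 3, 6, 7],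
    ![0, 2, 4, 6, 1, 3, 5, 7],
    ![0, 2, 5, 1, 6, 3, 4, 7],
    ![0, 2, 6, 4, 5, 3, 1, 7],
    ![0, 3, 1, 5, 6, 2, 4, 7],
    ![0, 3, 4, 6, 5, 2, 1, 7],
    ![0, 3, 5, 1, 4, 2, 6, 7],
    ![0, 3, 6, 4, 1, 2, 5, 7],
    ![0, 4, 1, 5, 2, 6, 3, 7],
    ![0, 4, 2, 3, 1, 6, 5, 7],
    ![0, 4, 3, 2, 5, 6, 1, 7],
    ![0, 4, 5, 1, 3, 6, 2, 7],
    ![0, 5, 2, 3, 6, 1, 4, 7],
    ![0, 5, 3, 2, 4, 1, 6, 7],
    ![0, 5, 4, 6, 3, 1, 2, 7],
    ![0, 5, 6, 4, 2, 1, 3, 7],
    ![0, 6, 1, 5, 3, 4, 2, 7],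
    ![0, 6, 2, 3, 5, 4, 1, 7],
    ![0, 6, 3, 2, 1, 4, 5, 7],
    ![0, 6, 5, 1, 2, 4, 3, 7]]

/-- Equality of tables, as a Boolean. -/
def tabEq (u v : Tab) : Bool := (List.finRange 8).all fun i => u i == v i

/-- Membership of a table in a list, as a Boolean. -/
def tabMem (u : Tab) (L : List Tab) : Bool := L.any (tabEq u)

/-- Does the map `f` conjugate the list of tables into itself? -/
def normB (Vt : List Tab) (f : Tab) : Bool :=
  Vt.all fun v => Vt.any fun v' => (List.finRange 8).all fun i => f (v i) == v' (f i)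

/-- The value of a word in `x0` (`true`) and `f` (`false`). -/
def evalW (f : Tab) (w : List Bool) (i : Fin 8) : Fin 8 :=
  w.foldr (fun c acc => if c then x0t acc else f acc) i

def fixAll (h : Tab) (n : ℕ) : Bool := (List.finRange 8).all fun i => h^[n] i == i

/-- Does the word in `x0` and `f` have order 5 or 15? -/
def testW (f : Tab) (w : List Bool) : Bool := fixAll (evalW f w) 15 && !fixAll (evalW f w) 3

def W : List (List Bool) :=
  [[true, false, false, true, false, false, false], [true, false, true, false, false, false, false], [true, true, true, true, true, false, true, false], [true, true, false, true, false, false, false, false], [true, true, true, false, true, false, false, true, false], [true, true, true, false, true, false], [true, true, false, true, false, false, false], [true, true, true, true, false, false, false, true, true, false, false], [true, true, true, true, true, true, false, false, false], [true, true,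 false, false, true, false, false, false], [true, true, false, false]]

def Qb (f : Tab) : Bool := normB V1t f || normB V2t f || W.any (testW f)

def sgnVec (f : Tab) : ℤˣ := ∏ x ∈ Perm.finPairsLT 8, if f x.1 ≤ f x.2 then -1 else 1

/-- Quantification over the six values `a, ..., f`, pairwise distinct and different from 0 and 7. -/
def forall6 (P : Fin 8 → Fin 8 → Fin 8 → Fin 8 → Fin 8 → Fin 8 → Bool) : Bool :=
  (List.finRange 8).all fun a => (a == 0 || a == 7) ||
  (List.finRange 8).all fun b => (b == 0 || b == 7 || b == a) ||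
  (List.finRange 8).all fun c => (c == 0 || c == 7 || c == a || c == b) ||
  (List.finRange 8).all fun d => (d == 0 || d == 7 || d == a || d == b || d == c) ||
  (List.finRange 8).all fun e => (e == 0 || e == 7 || e == a || e == b || e == c || e == d) ||
  (List.finRange 8).all fun f => (f == 0 || f == 7 || f == a || f == b || f == c || f == d || f == e) ||
  P a b c d e f

theorem forall6_spec {P : Fin 8 → Fin 8 → Fin 8 → Fin 8 → Fin 8 → Fin 8 → Bool} (h : forall6 P = true)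
    (a b c d e f : Fin 8) (ha0 : a ≠ 0) (ha7 : a ≠ 7) (hb0 : b ≠ 0) (hb7 : b ≠ 7) (hba : b ≠ a)
    (hc0 : c ≠ 0) (hc7 : c ≠ 7) (hca : c ≠ a) (hcb : c ≠ b)
    (hd0 : d ≠ 0) (hd7 : d ≠ 7) (hda : d ≠ a) (hdb : d ≠ b) (hdc : d ≠ c)
    (he0 : e ≠ 0) (he7 : e ≠ 7) (hea : e ≠ a) (heb : e ≠ b) (hec : e ≠ c) (hed : e ≠ d)
    (hf0 : f ≠ 0) (hf7 : f ≠ 7) (hfa : f ≠ a) (hfb : f ≠ b) (hfc : f ≠ c) (hfd : f ≠ d) (hfe : f ≠ e) :
    P a b c d e f = true := by
  simp only [forall6, List.all_eq_true, List.mem_finRange, forall_const, Bool.or_eq_true,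
    beq_iff_eq] at h
  have h := h a
  simp only [ha0, ha7, or_self, false_or] at h
  have h := h b
  simp only [hb0, hb7, hba, or_self, false_or] at h
  have h := h c
  simp only [hc0, hc7, hca, hcb, or_self, false_or] at h
  have h := h d
  simp only [hd0, hd7, hda, hdb, hdc, or_self, false_or] at h
  have h := h e
  simp only [he0, he7, hea, heb, hec, hed, or_self, false_or] at h
  have h := h f
  simp only [hf0, hf7, hfa, hfb, hfc, hfd, hfe, or_self, false_or] at h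
  exact h

theorem core1 : forall6 (fun a b c d e f =>
    !(sgnVec ![7, a, b, c, d, e, f, 0] == 1) || Qb ![7, a, b, c, d, e, f, 0]) = true := by
  decide +kernel

theorem core2 : forall6 (fun a b c d e f =>
    !(sgnVec ![0, a, b, c, d, e, f, 7] == 1) || Qb ![0, a, b, c, d, e, f, 7]) = true := by
  decide +kernel

theorem stab1 : forall6 (fun a b c d e f =>
    !(normB V1t ![0, a, b, c, d, e, f, 7]) || tabMem ![0, a, b, c, d, e, f, 7] S1t) = true := by
  decide +kernel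

theorem stab2 : forall6 (fun a b c d e f =>
    !(normB V2t ![0, a, b, c, d, e, f, 7]) || tabMem ![0, a, b, c, d, e, f, 7] S2t) = true := by
  decide +kernel

/-! ### Soundness -/

theorem coe_x0 : (⇑x0 : Tab) = x0t := rfl

theorem pAI (g : Perm (Fin 8)) (x : Fin 8) : g (g⁻¹ x) = x := g.apply_symm_apply x

theorem pIA (g : Perm (Fin 8)) (x : Fin 8) : g⁻¹ (g x) = x := g.symm_apply_apply x

theorem tabEq_iff (u v : Tab) : tabEq u v = true ↔ u = v := by
  simp only [tabEq, List.all_eq_true, List.mem_finRange, forall_const, beq_iff_eq]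
  exact ⟨fun h => funext h, fun h i => congrFun h i⟩

theorem tabMem_iff (u : Tab) (L : List Tab) : tabMem u L = true ↔ u ∈ L := by
  simp only [tabMem, List.any_eq_true, tabEq_iff]
  constructor
  · rintro ⟨v, hv, rfl⟩
    exact hv
  · intro h
    exact ⟨u, h, rfl⟩

theorem one_of_bool {Vt : List Tab} (h : tabMem id Vt = true) : (id : Tab) ∈ Vt :=
  (tabMem_iff _ _).mp h

theorem mul_of_bool {Vt : List Tab}
    (h : (Vt.all fun u => Vt.all fun v => tabMem (u ∘ v) Vt) = true) :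
    ∀ u ∈ Vt, ∀ v ∈ Vt, u ∘ v ∈ Vt := by
  simp only [List.all_eq_true] at h
  intro u hu v hv
  exact (tabMem_iff _ _).mp (h u hu v hv)

theorem sq_of_bool {Vt : List Tab} (h : (Vt.all fun u => tabEq (u ∘ u) id) = true) :
    ∀ u ∈ Vt, u ∘ u = id := by
  simp only [List.all_eq_true] at h
  intro u hu
  exact (tabEq_iff _ _).mp (h u hu)

theorem comm_of_bool {Vt : List Tab}
    (h : (Vt.all fun u => Vt.all fun v => tabEq (u ∘ v) (v ∘ u)) = true) :
    ∀ u ∈ Vt, ∀ v ∈ Vt, u ∘ v = v ∘ u := by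
  simp only [List.all_eq_true] at h
  intro u hu v hv
  exact (tabEq_iff _ _).mp (h u hu v hv)

theorem inj_of_bool {Vt : List Tab}
    (h : (Vt.all fun u => Vt.all fun v => !(u 7 == v 7) || tabEq u v) = true) :
    ∀ u ∈ Vt, ∀ v ∈ Vt, u 7 = v 7 → u = v := by
  simp only [List.all_eq_true, Bool.or_eq_true, Bool.not_eq_true', beq_eq_false_iff_ne, ne_eq,
    tabEq_iff] at h
  intro u hu v hv h7
  rcases h u hu v hv with h1 | h1
  · exact absurd h7 h1
  · exact h1

theorem surj_of_bool {Vt : List Tab}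
    (h : ((List.finRange 8).all fun i => Vt.any fun u => u 7 == i) = true) :
    ∀ i : Fin 8, ∃ u ∈ Vt, u 7 = i := by
  simp only [List.all_eq_true, List.mem_finRange, forall_const, List.any_eq_true, beq_iff_eq] at h
  exact h

theorem sign_eq_signAux (g : Perm (Fin 8)) : Perm.sign g = Perm.signAux g := by
  have hs : Function.Surjective (MonoidHom.mk' (Perm.signAux (n := 8)) Perm.signAux_mul) := by
    intro u
    rcases Int.units_eq_one_or u with rfl | rfl
    · exact ⟨1, Perm.signAux_one 8⟩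
    · exact ⟨swap 0 1, Perm.signAux_swap (x := (0 : Fin 8)) (y := 1) (by decide)⟩
  have h := Perm.eq_sign_of_surjective_hom hs
  rw [← h]
  rfl

/-- The subgroup of the permutations whose table is in a list closed under composition. -/
def tabSubgroup (Vt : List Tab) (h1 : (id : Tab) ∈ Vt) (hm : ∀ u ∈ Vt, ∀ v ∈ Vt, u ∘ v ∈ Vt)
    (hi : ∀ u ∈ Vt, u ∘ u = id) : Subgroup (Perm (Fin 8)) where
  carrier := {p | (⇑p : Tab) ∈ Vt}
  mul_mem' := fun {a b} ha hb => hm _ ha _ hb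
  one_mem' := h1
  inv_mem' := fun {a} ha => by
    have h := hi _ ha
    have h2 : a⁻¹ = a := by
      rw [inv_eq_iff_mul_eq_one]
      exact Equiv.ext fun i => congrFun h i
    show (⇑(a⁻¹) : Tab) ∈ Vt
    rw [h2]
    exact ha

theorem mem_tabSubgroup {Vt : List Tab} {h1 : (id : Tab) ∈ Vt} {hm : ∀ u ∈ Vt, ∀ v ∈ Vt, u ∘ v ∈ Vt}
    {hi : ∀ u ∈ Vt, u ∘ u = id} {p : Perm (Fin 8)} :
    p ∈ tabSubgroup Vt h1 hm hi ↔ (⇑p : Tab) ∈ Vt := Iff.rfl

/-- The permutation with an involutive table. -/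
def permOfTab (u : Tab) (h : u ∘ u = id) : Perm (Fin 8) := ⟨u, u, congrFun h, congrFun h⟩

theorem normB_iff (Vt : List Tab) (f : Tab) :
    normB Vt f = true ↔ ∀ v ∈ Vt, ∃ v' ∈ Vt, ∀ i, f (v i) = v' (f i) := by
  simp [normB, List.all_eq_true, List.any_eq_true]

theorem conj_mem_of_normB {Vt : List Tab} (h1 : (id : Tab) ∈ Vt) (hm : ∀ u ∈ Vt, ∀ v ∈ Vt, u ∘ v ∈ Vt)
    (hi : ∀ u ∈ Vt, u ∘ u = id) (g : Perm (Fin 8)) (h : normB Vt ⇑g = true) :
    ∀ v ∈ tabSubgroup Vt h1 hm hi, g * v * g⁻¹ ∈ tabSubgroup Vt h1 hm hi := by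
  intro v hv
  obtain ⟨v', hv', h2⟩ := (normB_iff Vt _).mp h _ hv
  have h3 : (⇑(g * v * g⁻¹) : Tab) = v' := by
    funext j
    have h4 := h2 (g⁻¹ j)
    rw [pAI] at h4
    rw [← h4]
    rfl
  show (⇑(g * v * g⁻¹) : Tab) ∈ Vt
  rw [h3]
  exact hv'

theorem normB_of_conj_mem {Vt : List Tab} (h1 : (id : Tab) ∈ Vt) (hm : ∀ u ∈ Vt, ∀ v ∈ Vt, u ∘ v ∈ Vt)
    (hi : ∀ u ∈ Vt, u ∘ u = id) (g : Perm (Fin 8))
    (h : ∀ v ∈ tabSubgroup Vt h1 hm hi, g * v * g⁻¹ ∈ tabSubgroup Vt h1 hm hi) :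
    normB Vt ⇑g = true := by
  rw [normB_iff]
  intro u hu
  have hp : permOfTab u (hi u hu) ∈ tabSubgroup Vt h1 hm hi := hu
  refine ⟨_, h _ hp, ?_⟩
  intro i
  show g (u i) = (g * permOfTab u (hi u hu) * g⁻¹) (g i)
  rw [Perm.mul_apply, Perm.mul_apply, pIA]
  rfl

/-- The product of a word in `x0` and `g`. -/
def wordProd (g : Perm (Fin 8)) (w : List Bool) : Perm (Fin 8) :=
  (w.map fun c => if c then x0 else g).prod

theorem coe_wordProd (g : Perm (Fin 8)) (w : List Bool) (i : Fin 8) :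
    wordProd g w i = evalW ⇑g w i := by
  induction w generalizing i with
  | nil => rfl
  | cons c w ih =>
    have h1 : wordProd g (c :: w) = (if c then x0 else g) * wordProd g w := by
      simp [wordProd]
    rw [h1, Perm.mul_apply, ih]
    cases c <;> rfl

theorem wordProd_mem (g : Perm (Fin 8)) (w : List Bool) :
    wordProd g w ∈ Subgroup.closure ({x0, g} : Set (Perm (Fin 8))) := by
  apply Subgroup.list_prod_mem
  intro x hx
  simp only [List.mem_map] at hx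
  obtain ⟨c, -, rfl⟩ := hx
  cases c
  · exact Subgroup.subset_closure (by simp)
  · exact Subgroup.subset_closure (by simp)

theorem dvd_of_testW (g : Perm (Fin 8)) (w : List Bool) (h : testW ⇑g w = true) :
    5 ∣ orderOf (wordProd g w) := by
  simp only [testW, fixAll, Bool.and_eq_true, List.all_eq_true, List.mem_finRange, forall_const,
    beq_iff_eq, Bool.not_eq_true', Bool.eq_false_iff, ne_eq] at h
  obtain ⟨h15, h3⟩ := h
  set p := wordProd g w with hp
  have hfun : (⇑p : Tab) = evalW ⇑g w := funext fun j => coe_wordProd g w j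
  rw [← hfun] at h15 h3
  have hp15 : p ^ 15 = 1 := by
    apply Equiv.ext
    intro i
    have := h15 i
    rw [Perm.iterate_eq_pow] at this
    exact this
  have hp3 : p ^ 3 ≠ 1 := by
    intro h
    apply h3
    intro i
    rw [Perm.iterate_eq_pow, h]
    rfl
  have hd : orderOf p ∣ 15 := orderOf_dvd_of_pow_eq_one hp15
  have hnd : ¬ orderOf p ∣ 3 := fun h => hp3 (orderOf_dvd_iff_pow_eq_one.mp h)
  have hle : orderOf p ≤ 15 := Nat.le_of_dvd (by norm_num) hd
  generalize orderOf p = n at hd hnd hle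
  interval_cases n <;> omega

/-! ### The two subgroups -/

theorem V1t_one : (id : Tab) ∈ V1t := one_of_bool (by decide +kernel)

theorem V1t_mul : ∀ u ∈ V1t, ∀ v ∈ V1t, u ∘ v ∈ V1t := mul_of_bool (by decide +kernel)

theorem V1t_sq : ∀ u ∈ V1t, u ∘ u = id := sq_of_bool (by decide +kernel)

theorem V2t_one : (id : Tab) ∈ V2t := one_of_bool (by decide +kernel)

theorem V2t_mul : ∀ u ∈ V2t, ∀ v ∈ V2t, u ∘ v ∈ V2t := mul_of_bool (by decide +kernel)

theorem V2t_sq : ∀ u ∈ V2t, u ∘ u = id := sq_of_bool (by decide +kernel)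

/-- The translation group of the first field structure. -/
def V1 : Subgroup (Perm (Fin 8)) := tabSubgroup V1t V1t_one V1t_mul V1t_sq

/-- The translation group of the second field structure. -/
def V2 : Subgroup (Perm (Fin 8)) := tabSubgroup V2t V2t_one V2t_mul V2t_sq

theorem comm_tabSubgroup {Vt : List Tab} (h1 : (id : Tab) ∈ Vt) (hm : ∀ u ∈ Vt, ∀ v ∈ Vt, u ∘ v ∈ Vt)
    (hi : ∀ u ∈ Vt, u ∘ u = id) (hc : ∀ u ∈ Vt, ∀ v ∈ Vt, u ∘ v = v ∘ u) :
    ∀ a ∈ tabSubgroup Vt h1 hm hi, ∀ b ∈ tabSubgroup Vt h1 hm hi, a * b = b * a := by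
  intro a ha b hb
  exact Equiv.ext fun i => congrFun (hc _ ha _ hb) i

theorem V1_comm : ∀ a ∈ V1, ∀ b ∈ V1, a * b = b * a :=
  comm_tabSubgroup _ _ _ (comm_of_bool (by decide +kernel))

theorem V2_comm : ∀ a ∈ V2, ∀ b ∈ V2, a * b = b * a :=
  comm_tabSubgroup _ _ _ (comm_of_bool (by decide +kernel))

theorem card_tabSubgroup {Vt : List Tab} (h1 : (id : Tab) ∈ Vt) (hm : ∀ u ∈ Vt, ∀ v ∈ Vt, u ∘ v ∈ Vt)
    (hi : ∀ u ∈ Vt, u ∘ u = id) (hinj : ∀ u ∈ Vt, ∀ v ∈ Vt, u 7 = v 7 → u = v)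
    (hsurj : ∀ i : Fin 8, ∃ u ∈ Vt, u 7 = i) : Nat.card (tabSubgroup Vt h1 hm hi) = 8 := by
  have hb : Function.Bijective (fun v : tabSubgroup Vt h1 hm hi => (v : Perm (Fin 8)) 7) := by
    constructor
    · intro a b hab
      apply Subtype.ext
      exact DFunLike.coe_injective (hinj _ a.2 _ b.2 hab)
    · intro i
      obtain ⟨u, hu, hui⟩ := hsurj i
      exact ⟨⟨permOfTab u (hi u hu), hu⟩, hui⟩
  rw [Nat.card_eq_of_bijective _ hb, Nat.card_fin]

theorem card_V1 : Nat.card V1 = 8 := card_tabSubgroup _ _ _ (inj_of_bool (by decide +kernel)) (surj_of_bool (by decide +kernel))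

theorem card_V2 : Nat.card V2 = 8 := card_tabSubgroup _ _ _ (inj_of_bool (by decide +kernel)) (surj_of_bool (by decide +kernel))

/-! ### The main alternative -/

/-- `g` normalises `V1`, or normalises `V2`, or `⟨x0, g⟩` has an element of order divisible by 5. -/
def Q (g : Perm (Fin 8)) : Prop :=
  (∀ v ∈ V1, g * v * g⁻¹ ∈ V1) ∨ (∀ v ∈ V2, g * v * g⁻¹ ∈ V2) ∨
    ∃ h ∈ Subgroup.closure ({x0, g} : Set (Perm (Fin 8))), 5 ∣ orderOf h

theorem Q_of_Qb (g : Perm (Fin 8)) (h : Qb ⇑g = true) : Q g := by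
  simp only [Qb, Bool.or_eq_true, List.any_eq_true] at h
  rcases h with (h | h) | ⟨w, -, hw⟩
  · exact Or.inl (conj_mem_of_normB _ _ _ g h)
  · exact Or.inr (Or.inl (conj_mem_of_normB _ _ _ g h))
  · exact Or.inr (Or.inr ⟨wordProd g w, wordProd_mem g w, dvd_of_testW g w hw⟩)

theorem Q_of_type1 (g : Perm (Fin 8)) (hs : Perm.sign g = 1) (h7 : g 7 = 0) (h0 : g 0 = 7) : Q g := by
  apply Q_of_Qb
  have hinj := g.injective
  have ne0 : ∀ i : Fin 8, i ≠ 7 → g i ≠ 0 := fun i hi h => hi (hinj (h.trans h7.symm))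
  have ne7 : ∀ i : Fin 8, i ≠ 0 → g i ≠ 7 := fun i hi h => hi (hinj (h.trans h0.symm))
  have nej : ∀ i j : Fin 8, i ≠ j → g i ≠ g j := fun i j hij h => hij (hinj h)
  have key := forall6_spec core1 (g 1) (g 2) (g 3) (g 4) (g 5) (g 6)
    (ne0 1 (by decide)) (ne7 1 (by decide))
    (ne0 2 (by decide)) (ne7 2 (by decide)) (nej 2 1 (by decide))
    (ne0 3 (by decide)) (ne7 3 (by decide)) (nej 3 1 (by decide)) (nej 3 2 (by decide))
    (ne0 4 (by decide)) (ne7 4 (by decide)) (nej 4 1 (by decide)) (nej 4 2 (by decide))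
    (nej 4 3 (by decide))
    (ne0 5 (by decide)) (ne7 5 (by decide)) (nej 5 1 (by decide)) (nej 5 2 (by decide))
    (nej 5 3 (by decide)) (nej 5 4 (by decide))
    (ne0 6 (by decide)) (ne7 6 (by decide)) (nej 6 1 (by decide)) (nej 6 2 (by decide))
    (nej 6 3 (by decide)) (nej 6 4 (by decide)) (nej 6 5 (by decide))
  have htab : (⇑g : Tab) = ![7, g 1, g 2, g 3, g 4, g 5, g 6, 0] := by
    funext i
    fin_cases i
    · exact h0
    · rfl
    · rfl
    · rfl
    · rfl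
    · rfl
    · rfl
    · exact h7
  rw [htab]
  simp only [Bool.or_eq_true, Bool.not_eq_true', beq_eq_false_iff_ne] at key
  rcases key with key | key
  · exfalso
    apply key
    rw [← htab]
    show Perm.signAux g = 1
    rw [← sign_eq_signAux]
    exact hs
  · exact key

theorem Q_of_type2 (g : Perm (Fin 8)) (hs : Perm.sign g = 1) (h7 : g 7 = 7) (h0 : g 0 = 0) : Q g := by
  apply Q_of_Qb
  have hinj := g.injective
  have ne0 : ∀ i : Fin 8, i ≠ 0 → g i ≠ 0 := fun i hi h => hi (hinj (h.trans h0.symm))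
  have ne7 : ∀ i : Fin 8, i ≠ 7 → g i ≠ 7 := fun i hi h => hi (hinj (h.trans h7.symm))
  have nej : ∀ i j : Fin 8, i ≠ j → g i ≠ g j := fun i j hij h => hij (hinj h)
  have key := forall6_spec core2 (g 1) (g 2) (g 3) (g 4) (g 5) (g 6)
    (ne0 1 (by decide)) (ne7 1 (by decide))
    (ne0 2 (by decide)) (ne7 2 (by decide)) (nej 2 1 (by decide))
    (ne0 3 (by decide)) (ne7 3 (by decide)) (nej 3 1 (by decide)) (nej 3 2 (by decide))
    (ne0 4 (by decide)) (ne7 4 (by decide)) (nej 4 1 (by decide)) (nej 4 2 (by decide))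
    (nej 4 3 (by decide))
    (ne0 5 (by decide)) (ne7 5 (by decide)) (nej 5 1 (by decide)) (nej 5 2 (by decide))
    (nej 5 3 (by decide)) (nej 5 4 (by decide))
    (ne0 6 (by decide)) (ne7 6 (by decide)) (nej 6 1 (by decide)) (nej 6 2 (by decide))
    (nej 6 3 (by decide)) (nej 6 4 (by decide)) (nej 6 5 (by decide))
  have htab : (⇑g : Tab) = ![0, g 1, g 2, g 3, g 4, g 5, g 6, 7] := by
    funext i
    fin_cases i
    · exact h0
    · rfl
    · rfl
    · rfl
    · rfl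
    · rfl
    · rfl
    · exact h7
  rw [htab]
  simp only [Bool.or_eq_true, Bool.not_eq_true', beq_eq_false_iff_ne] at key
  rcases key with key | key
  · exfalso
    apply key
    rw [← htab]
    show Perm.signAux g = 1
    rw [← sign_eq_signAux]
    exact hs
  · exact key

/-! ### Normalisation by powers of `x0` -/

theorem x0_fix7 : ∀ a : Fin 7, (x0 ^ (a : ℕ)) 7 = 7 := by decide +kernel

theorem x0_to0 : ∀ j : Fin 8, j ≠ 7 → ∃ a : Fin 7, (x0 ^ (a : ℕ)) j = 0 := by decide +kernel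

theorem x0_from0 : ∀ i : Fin 8, i ≠ 7 → ∃ b : Fin 7, (x0 ^ (b : ℕ)) 0 = i := by decide +kernel

theorem sign_x0 : Perm.sign x0 = 1 := by
  rw [sign_eq_signAux]
  decide +kernel

theorem x0_inv_norm1 : normB V1t ⇑(x0⁻¹) = true := by decide +kernel

theorem x0_inv_norm2 : normB V2t ⇑(x0⁻¹) = true := by decide +kernel

theorem conj_pow_mem {Vt : List Tab} (h1 : (id : Tab) ∈ Vt) (hm : ∀ u ∈ Vt, ∀ v ∈ Vt, u ∘ v ∈ Vt)
    (hi : ∀ u ∈ Vt, u ∘ u = id) (hx : normB Vt ⇑(x0⁻¹) = true) (n : ℕ) :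
    ∀ v ∈ tabSubgroup Vt h1 hm hi, (x0 ^ n)⁻¹ * v * x0 ^ n ∈ tabSubgroup Vt h1 hm hi := by
  induction n with
  | zero => intro v hv; simpa using hv
  | succ n ih =>
    intro v hv
    have h2 := conj_mem_of_normB h1 hm hi (x0⁻¹) hx _ (ih v hv)
    have h3 : (x0 ^ (n + 1))⁻¹ * v * x0 ^ (n + 1) = x0⁻¹ * ((x0 ^ n)⁻¹ * v * x0 ^ n) * x0⁻¹⁻¹ := by
      rw [pow_succ]
      group
    rw [h3]
    exact h2

theorem Q_invariant (g : Perm (Fin 8)) (a b : ℕ) (h : Q (x0 ^ a * g * x0 ^ b)) : Q g := by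
  have hid : ∀ v : Perm (Fin 8), g * v * g⁻¹ = (x0 ^ a)⁻¹ * ((x0 ^ a * g * x0 ^ b) *
      ((x0 ^ b)⁻¹ * v * x0 ^ b) * (x0 ^ a * g * x0 ^ b)⁻¹) * x0 ^ a := by
    intro v
    group
  rcases h with h | h | ⟨k, hk, h5⟩
  · left
    intro v hv
    rw [hid v]
    exact conj_pow_mem _ _ _ x0_inv_norm1 a _ (h _ (conj_pow_mem _ _ _ x0_inv_norm1 b v hv))
  · right; left
    intro v hv
    rw [hid v]
    exact conj_pow_mem _ _ _ x0_inv_norm2 a _ (h _ (conj_pow_mem _ _ _ x0_inv_norm2 b v hv))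
  · right; right
    refine ⟨k, ?_, h5⟩
    have hle : Subgroup.closure ({x0, x0 ^ a * g * x0 ^ b} : Set (Perm (Fin 8))) ≤
        Subgroup.closure ({x0, g} : Set (Perm (Fin 8))) := by
      rw [Subgroup.closure_le]
      rintro y (rfl | rfl)
      · exact Subgroup.subset_closure (by simp)
      · have hx : x0 ∈ Subgroup.closure ({x0, g} : Set (Perm (Fin 8))) :=
          Subgroup.subset_closure (by simp)
        have hg : g ∈ Subgroup.closure ({x0, g} : Set (Perm (Fin 8))) :=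
          Subgroup.subset_closure (by simp)
        exact mul_mem (mul_mem (pow_mem hx a) hg) (pow_mem hx b)
    exact hle hk

/-- An even permutation of eight points normalises `V1`, or normalises `V2`, or generates together with
the 7-cycle `x0` a group containing an element of order divisible by 5. -/
theorem star8 (g : Perm (Fin 8)) (hg : g ∈ alternatingGroup (Fin 8)) :
    (∀ v ∈ V1, g * v * g⁻¹ ∈ V1) ∨ (∀ v ∈ V2, g * v * g⁻¹ ∈ V2) ∨
      ∃ h ∈ Subgroup.closure ({x0, g} : Set (Perm (Fin 8))), 5 ∣ orderOf h := by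
  have hs : Perm.sign g = 1 := Perm.mem_alternatingGroup.mp hg
  have hsgn : ∀ a b : ℕ, Perm.sign (x0 ^ a * g * x0 ^ b) = 1 := by
    intro a b
    simp [hs, sign_x0]
  show Q g
  by_cases h7 : g 7 = 7
  · have h0 : g 0 ≠ 7 := by
      intro h
      have := g.injective (h.trans h7.symm)
      exact absurd this (by decide)
    obtain ⟨a, ha⟩ := x0_to0 (g 0) h0
    apply Q_invariant g a 0
    apply Q_of_type2 _ (hsgn _ _)
    · show (x0 ^ (a : ℕ)) (g ((x0 ^ 0) 7)) = 7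
      rw [pow_zero, Perm.one_apply, h7]
      exact x0_fix7 a
    · show (x0 ^ (a : ℕ)) (g ((x0 ^ 0) 0)) = 0
      rw [pow_zero, Perm.one_apply]
      exact ha
  · obtain ⟨a, ha⟩ := x0_to0 (g 7) h7
    have h17 : (x0 ^ (a : ℕ) * g) 7 = 0 := ha
    have hi : (x0 ^ (a : ℕ) * g)⁻¹ 7 ≠ 7 := by
      intro h
      have h2 : (x0 ^ (a : ℕ) * g) 7 = 7 := by
        conv_lhs => rw [← h]
        exact pAI _ _
      rw [h17] at h2
      exact absurd h2 (by decide)
    obtain ⟨b, hb⟩ := x0_from0 _ hi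
    apply Q_invariant g a b
    apply Q_of_type1 _ (hsgn _ _)
    · show (x0 ^ (a : ℕ) * g) ((x0 ^ (b : ℕ)) 7) = 0
      rw [x0_fix7 b]
      exact h17
    · show (x0 ^ (a : ℕ) * g) ((x0 ^ (b : ℕ)) 0) = 7
      rw [hb]
      exact pAI _ _

/-! ### The stabiliser of two points in the normaliser -/

theorem card_stab_tab {Vt : List Tab} (h1 : (id : Tab) ∈ Vt) (hm : ∀ u ∈ Vt, ∀ v ∈ Vt, u ∘ v ∈ Vt)
    (hi : ∀ u ∈ Vt, u ∘ u = id) (St : List Tab)
    (hS : forall6 (fun a b c d e f => !(normB Vt ![0, a, b, c, d, e, f, 7]) ||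
      tabMem ![0, a, b, c, d, e, f, 7] St) = true) :
    Nat.card {g : Perm (Fin 8) // g 7 = 7 ∧ g 0 = 0 ∧
      ∀ v ∈ tabSubgroup Vt h1 hm hi, g * v * g⁻¹ ∈ tabSubgroup Vt h1 hm hi} ≤ St.length := by
  have hmem : ∀ g : Perm (Fin 8), g 7 = 7 → g 0 = 0 →
      (∀ v ∈ tabSubgroup Vt h1 hm hi, g * v * g⁻¹ ∈ tabSubgroup Vt h1 hm hi) → (⇑g : Tab) ∈ St := by
    intro g h7 h0 hn
    have hinj := g.injective
    have ne0 : ∀ i : Fin 8, i ≠ 0 → g i ≠ 0 := fun i hi h => hi (hinj (h.trans h0.symm))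
    have ne7 : ∀ i : Fin 8, i ≠ 7 → g i ≠ 7 := fun i hi h => hi (hinj (h.trans h7.symm))
    have nej : ∀ i j : Fin 8, i ≠ j → g i ≠ g j := fun i j hij h => hij (hinj h)
    have key := forall6_spec hS (g 1) (g 2) (g 3) (g 4) (g 5) (g 6)
      (ne0 1 (by decide)) (ne7 1 (by decide))
      (ne0 2 (by decide)) (ne7 2 (by decide)) (nej 2 1 (by decide))
      (ne0 3 (by decide)) (ne7 3 (by decide)) (nej 3 1 (by decide)) (nej 3 2 (by decide))
      (ne0 4 (by decide)) (ne7 4 (by decide)) (nej 4 1 (by decide)) (nej 4 2 (by decide))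
      (nej 4 3 (by decide))
      (ne0 5 (by decide)) (ne7 5 (by decide)) (nej 5 1 (by decide)) (nej 5 2 (by decide))
      (nej 5 3 (by decide)) (nej 5 4 (by decide))
      (ne0 6 (by decide)) (ne7 6 (by decide)) (nej 6 1 (by decide)) (nej 6 2 (by decide))
      (nej 6 3 (by decide)) (nej 6 4 (by decide)) (nej 6 5 (by decide))
    have htab : (⇑g : Tab) = ![0, g 1, g 2, g 3, g 4, g 5, g 6, 7] := by
      funext i
      fin_cases i
      · exact h0
      · rfl
      · rfl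
      · rfl
      · rfl
      · rfl
      · rfl
      · exact h7
    have hnb := normB_of_conj_mem h1 hm hi g hn
    rw [htab] at hnb ⊢
    simp only [Bool.or_eq_true, Bool.not_eq_true', tabMem_iff] at key
    rcases key with key | key
    · rw [hnb] at key
      exact absurd key (by decide)
    · exact key
  let φ : {g : Perm (Fin 8) // g 7 = 7 ∧ g 0 = 0 ∧
      ∀ v ∈ tabSubgroup Vt h1 hm hi, g * v * g⁻¹ ∈ tabSubgroup Vt h1 hm hi} → {t : Tab // t ∈ St.toFinset} :=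
    fun g => ⟨⇑g.1, List.mem_toFinset.mpr (hmem g.1 g.2.1 g.2.2.1 g.2.2.2)⟩
  have hφ : Function.Injective φ := by
    intro g g' h
    apply Subtype.ext
    exact DFunLike.coe_injective (congrArg Subtype.val h)
  calc Nat.card {g : Perm (Fin 8) // g 7 = 7 ∧ g 0 = 0 ∧
        ∀ v ∈ tabSubgroup Vt h1 hm hi, g * v * g⁻¹ ∈ tabSubgroup Vt h1 hm hi}
      ≤ Nat.card {t : Tab // t ∈ St.toFinset} := Nat.card_le_card_of_injective φ hφ
    _ = St.toFinset.card := by rw [Nat.card_eq_fintype_card, Fintype.card_coe]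
    _ ≤ St.length := List.toFinset_card_le St

theorem card_stab_V1 : Nat.card {g : Perm (Fin 8) // g 7 = 7 ∧ g 0 = 0 ∧
    ∀ v ∈ V1, g * v * g⁻¹ ∈ V1} ≤ 24 :=
  card_stab_tab V1t_one V1t_mul V1t_sq S1t stab1

theorem card_stab_V2 : Nat.card {g : Perm (Fin 8) // g 7 = 7 ∧ g 0 = 0 ∧
    ∀ v ∈ V2, g * v * g⁻¹ ∈ V2} ≤ 24 :=
  card_stab_tab V2t_one V2t_mul V2t_sq S2t stab2

theorem cycleType_x0 : x0.cycleType = {7} := by
  have : Fact (Nat.Prime 7) := ⟨by norm_num⟩
  have h7 : orderOf x0 = 7 := by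
    apply orderOf_eq_prime
    · have h : ∀ i : Fin 8, (x0 ^ 7) i = i := by decide +kernel
      exact Equiv.ext h
    · intro h
      have h2 : x0 0 = 0 := by rw [h]; rfl
      exact absurd h2 (by decide +kernel)
  obtain ⟨n, hn⟩ := Perm.cycleType_prime_order (σ := x0) (by rw [h7]; norm_num)
  apply Perm.cycleType_of_card_le_mem_cycleType_add_two (n := 7) (by simp)
  rw [hn, h7]
  simp [Multiset.mem_replicate]

end Cfsg.Agent.Lib.Helper70.G4
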